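import Mathlib
import Cfsg.Agent.Lib.Helper35.JR.Defs

/-!
# JR (S3206) package [AUT]
-/

set_option autoImplicit false

open scoped Pointwise

namespace Cfsg.Agent.Lib.Helper93.JR

open Cfsg.Agent.Lib.Helper35.JR

universe u

section basics

variable {G : Type u} [Group G]

theorem inv_eq_self_of_sq {z : G} (h : z ^ 2 = 1) : z⁻¹ = z := by
  rw [sq] at h
  exact (eq_inv_of_mul_eq_one_left h).symm

theorem mem_smul_sylow (g : G) (P : Sylow 2 G) (x : G) :
    x ∈ ((g • P : Sylow 2 G) : Subgroup G) ↔ g⁻¹ * x * g ∈ (P : Subgroup G) := by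
  rw [Sylow.coe_subgroup_smul, Subgroup.mem_pointwise_smul_iff_inv_smul_mem]
  simp [MulAut.smul_def]

theorem mem_zpowers_of_sq {s x : G} (hs : s ^ 2 = 1) (hx : x ∈ Subgroup.zpowers s) :
    x = 1 ∨ x = s := by
  obtain ⟨k, rfl⟩ := Subgroup.mem_zpowers_iff.mp hx
  have h1 : s ^ k = s ^ (k % 2) := by
    conv_lhs => rw [← Int.emod_add_mul_ediv k 2]
    rw [zpow_add, zpow_mul, zpow_two, ← sq, hs, one_zpow, mul_one]
  rcases Int.emod_two_eq_zero_or_one k with h0 | h0
  · left; rw [h1, h0, zpow_zero]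
  · right; rw [h1, h0, zpow_one]

/-- conjugation and centralizers of singletons -/
theorem conj_mem_centralizer_iff (h t x : G) :
    h * x * h⁻¹ ∈ Subgroup.centralizer ({h * t * h⁻¹} : Set G) ↔
      x ∈ Subgroup.centralizer ({t} : Set G) := by
  rw [Subgroup.mem_centralizer_singleton_iff, Subgroup.mem_centralizer_singleton_iff]
  constructor
  · intro e
    have e2 : h⁻¹ * (h * x * h⁻¹ * (h * t * h⁻¹)) * h = h⁻¹ * (h * t * h⁻¹ * (h * x * h⁻¹)) * h := by
      rw [e]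
    simpa [mul_assoc] using e2
  · intro e
    calc h * x * h⁻¹ * (h * t * h⁻¹) = h * (x * t) * h⁻¹ := by group
      _ = h * (t * x) * h⁻¹ := by rw [e]
      _ = h * t * h⁻¹ * (h * x * h⁻¹) := by group

end basics

/-- The local statement at a conjugate `s = h t h⁻¹ ∈ S` of `t`. -/
theorem local_at {G : Type u} [Group G] [Finite G] (t : G) (hZC : ZC G t) (hLoc : Loc G t)
    (φ : G ≃* G) (k : ℕ) (hφ : φ ^ (2 ^ k) = 1) (S : Sylow 2 G)
    (hS : ∀ s ∈ (S : Subgroup G), φ s = s) (h : G) (hsS : h * t * h⁻¹ ∈ (S : Subgroup G)) :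
    (∃ w ∈ (S : Subgroup G), ∀ y ∈ Subgroup.centralizer ({h * t * h⁻¹} : Set G),
      φ y = w * y * w⁻¹) ∧
    (∀ x ∈ Subgroup.centralizer ({h * t * h⁻¹} : Set G),
      (∀ y ∈ Subgroup.centralizer ({h * t * h⁻¹} : Set G), x * y = y * x) →
        x ∈ Subgroup.zpowers (h * t * h⁻¹)) := by
  constructor
  · obtain ⟨ψ, hψdef⟩ : ∃ ψ : MulAut G, ψ = (MulAut.conj h)⁻¹ * φ * ((MulAut.conj h)⁻¹)⁻¹ :=
      ⟨_, rfl⟩
    have hψpow : ψ ^ (2 ^ k) = 1 := by
      rw [hψdef, conj_pow]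
      have : (φ : MulAut G) ^ (2 ^ k) = 1 := hφ
      rw [this, mul_one, mul_inv_cancel]
    have hψ_apply : ∀ x, ψ x = h⁻¹ * φ (h * x * h⁻¹) * h := by
      intro x
      rw [hψdef, inv_inv, MulAut.mul_apply, MulAut.mul_apply, MulAut.conj_inv_apply,
        MulAut.conj_apply]
    have htS' : t ∈ ((h⁻¹ • S : Sylow 2 G) : Subgroup G) := by
      rw [mem_smul_sylow, inv_inv]; exact hsS
    have hfix : ∀ x ∈ ((h⁻¹ • S : Sylow 2 G) : Subgroup G), ψ x = x := by
      intro x hx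
      rw [mem_smul_sylow, inv_inv] at hx
      rw [hψ_apply, hS _ hx]
      group
    obtain ⟨w', hw'S, hw'⟩ := hLoc ψ k hψpow (h⁻¹ • S) htS' hfix
    rw [mem_smul_sylow, inv_inv] at hw'S
    refine ⟨h * w' * h⁻¹, hw'S, ?_⟩
    intro y hy
    have hx : h⁻¹ * y * h ∈ Subgroup.centralizer ({t} : Set G) := by
      rw [← conj_mem_centralizer_iff h t]
      have : h * (h⁻¹ * y * h) * h⁻¹ = y := by group
      rw [this]; exact hy
    have e1 := hw' _ hx
    rw [hψ_apply] at e1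
    have e2 : h * (h⁻¹ * y * h) * h⁻¹ = y := by group
    rw [e2] at e1
    -- e1 : h⁻¹ * φ y * h = w' * (h⁻¹ * y * h) * w'⁻¹
    calc φ y = h * (h⁻¹ * φ y * h) * h⁻¹ := by group
      _ = h * (w' * (h⁻¹ * y * h) * w'⁻¹) * h⁻¹ := by rw [e1]
      _ = h * w' * h⁻¹ * y * (h * w' * h⁻¹)⁻¹ := by group
  · intro x hx hcent
    have hx' : h⁻¹ * x * h ∈ Subgroup.centralizer ({t} : Set G) := by
      rw [← conj_mem_centralizer_iff h t]
      have : h * (h⁻¹ * x * h) * h⁻¹ = x := by group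
      rw [this]; exact hx
    have hc' : ∀ y ∈ Subgroup.centralizer ({t} : Set G),
        (h⁻¹ * x * h) * y = y * (h⁻¹ * x * h) := by
      intro y hy
      have h1 := hcent (h * y * h⁻¹) ((conj_mem_centralizer_iff h t y).mpr hy)
      calc (h⁻¹ * x * h) * y = h⁻¹ * (x * (h * y * h⁻¹)) * h := by group
        _ = h⁻¹ * ((h * y * h⁻¹) * x) * h := by rw [h1]
        _ = y * (h⁻¹ * x * h) := by group
    obtain ⟨n, hn⟩ := Subgroup.mem_zpowers_iff.mp (hZC _ hx' hc')
    rw [Subgroup.mem_zpowers_iff]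
    refine ⟨n, ?_⟩
    rw [conj_zpow, hn]
    group

/-- [AUT] -/
theorem pkgAut : PkgAut.{u} := by
  intro G _ _ t ht hco hS8 hFus hZC hLoc φ k hφ ⟨S, hS⟩
  classical
  have hSexp : ∀ x ∈ (S : Subgroup G), x ^ 2 = 1 := (hS8 S).2
  have hScard : Nat.card ↥(S : Subgroup G) = 8 := (hS8 S).1
  have hScomm : ∀ x ∈ (S : Subgroup G), ∀ y ∈ (S : Subgroup G), x * y = y * x := by
    intro x hx y hy
    have h1 := inv_eq_self_of_sq (hSexp x hx)
    have h2 := inv_eq_self_of_sq (hSexp y hy)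
    have h3 := inv_eq_self_of_sq (hSexp (x * y) (Subgroup.mul_mem _ hx hy))
    rw [mul_inv_rev, h1, h2] at h3
    exact h3.symm
  have ht1 : t ≠ 1 := by
    rintro rfl
    rw [orderOf_one] at ht
    exact absurd ht (by norm_num)
  -- `t` is conjugate into `S`
  obtain ⟨Q, hQ⟩ : ∃ Q : Sylow 2 G, Subgroup.zpowers t ≤ Q := by
    apply IsPGroup.exists_le_sylow
    exact IsPGroup.of_card (n := 1) (by rw [Nat.card_zpowers, ht, pow_one])
  obtain ⟨g₀, hg₀⟩ := MulAction.exists_smul_eq G S Q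
  have ht₀S : g₀⁻¹ * t * g₀ ∈ (S : Subgroup G) := by
    rw [← mem_smul_sylow, hg₀]
    exact hQ (Subgroup.mem_zpowers t)
  have ht₀1 : g₀⁻¹ * t * g₀ ≠ 1 := by
    intro h0
    apply ht1
    have : t = g₀ * (g₀⁻¹ * t * g₀) * g₀⁻¹ := by group
    rw [this, h0]; group
  -- every nonidentity element of `S` is a conjugate of `t`
  have hconj : ∀ s ∈ (S : Subgroup G), s ≠ 1 → ∃ h : G, h * t * h⁻¹ = s := by
    intro s hs hs1
    obtain ⟨n, -, hns⟩ := hFus S _ ht₀S ht₀1 s hs hs1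
    refine ⟨n * g₀⁻¹, ?_⟩
    rw [← hns]; group
  have hloc : ∀ s ∈ (S : Subgroup G), s ≠ 1 →
      (∃ w ∈ (S : Subgroup G), ∀ y ∈ Subgroup.centralizer ({s} : Set G), φ y = w * y * w⁻¹) ∧
      (∀ x ∈ Subgroup.centralizer ({s} : Set G),
        (∀ y ∈ Subgroup.centralizer ({s} : Set G), x * y = y * x) → x ∈ Subgroup.zpowers s) := by
    intro s hs hs1
    obtain ⟨h, rfl⟩ := hconj s hs hs1
    exact local_at t hZC hLoc φ k hφ S hS h hs
  -- the index set
  obtain ⟨A, hAdef⟩ : ∃ A : Type u, A = {s : G // s ∈ (S : Subgroup G) ∧ s ≠ 1} := ⟨_, rfl⟩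
  subst hAdef
  have hw : ∀ a : {s : G // s ∈ (S : Subgroup G) ∧ s ≠ 1}, ∃ w ∈ (S : Subgroup G),
      ∀ y ∈ Subgroup.centralizer ({a.1} : Set G), φ y = w * y * w⁻¹ :=
    fun a => (hloc a.1 a.2.1 a.2.2).1
  choose W hWS hW using hw
  let _ : Fintype ↥(S : Subgroup G) := Fintype.ofFinite _
  let _ : Fintype {s : G // s ∈ (S : Subgroup G) ∧ s ≠ 1} := Fintype.ofFinite _
  let f : {s : G // s ∈ (S : Subgroup G) ∧ s ≠ 1} × Fin 2 → ↥(S : Subgroup G) := fun p =>
    ⟨W p.1 * p.1.1 ^ (p.2 : ℕ), Subgroup.mul_mem _ (hWS p.1) (Subgroup.pow_mem _ p.1.2.1 _)⟩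
  have hcardS : Fintype.card ↥(S : Subgroup G) = 8 := by
    rw [← Nat.card_eq_fintype_card]; exact hScard
  have hcardA : 7 ≤ Fintype.card {s : G // s ∈ (S : Subgroup G) ∧ s ≠ 1} := by
    let e : ↥(S : Subgroup G) → Option {s : G // s ∈ (S : Subgroup G) ∧ s ≠ 1} := fun x =>
      if hx : x = 1 then none else some ⟨x.1, x.2, fun h => hx (Subtype.ext h)⟩
    have he : Function.Injective e := by
      intro x y hxy
      by_cases hx : x = 1
      · by_cases hy : y = 1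
        · rw [hx, hy]
        · exfalso
          have ex : e x = none := dif_pos hx
          have ey : e y = some ⟨y.1, y.2, fun h => hy (Subtype.ext h)⟩ := dif_neg hy
          rw [ex, ey] at hxy
          cases hxy
      · by_cases hy : y = 1
        · exfalso
          have ex : e x = some ⟨x.1, x.2, fun h => hx (Subtype.ext h)⟩ := dif_neg hx
          have ey : e y = none := dif_pos hy
          rw [ex, ey] at hxy
          cases hxy
        · have ex : e x = some ⟨x.1, x.2, fun h => hx (Subtype.ext h)⟩ := dif_neg hx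
          have ey : e y = some ⟨y.1, y.2, fun h => hy (Subtype.ext h)⟩ := dif_neg hy
          rw [ex, ey] at hxy
          have h1 := Option.some.inj hxy
          have h2 : (x : G) = (y : G) := by
            have h3 := congrArg (fun a : {s : G // s ∈ (S : Subgroup G) ∧ s ≠ 1} => a.1) h1
            exact h3
          exact Subtype.ext h2
    have := Fintype.card_le_of_injective e he
    rw [Fintype.card_option, hcardS] at this
    omega
  obtain ⟨p, p', hne, hpp⟩ := Fintype.exists_ne_map_eq_of_card_lt f (by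
    rw [Fintype.card_prod, Fintype.card_fin, hcardS]; omega)
  obtain ⟨⟨s, hsS, hs1⟩, i⟩ := p
  obtain ⟨⟨s', hs'S, hs'1⟩, i'⟩ := p'
  have hpp' : W ⟨s, hsS, hs1⟩ * s ^ (i : ℕ) = W ⟨s', hs'S, hs'1⟩ * s' ^ (i' : ℕ) :=
    congrArg Subtype.val hpp
  -- both work on their centralizers
  have hwork : ∀ (s : G) (hsS : s ∈ (S : Subgroup G)) (hs1 : s ≠ 1) (i : Fin 2),
      ∀ y ∈ Subgroup.centralizer ({s} : Set G),
        φ y = (W ⟨s, hsS, hs1⟩ * s ^ (i : ℕ)) * y * (W ⟨s, hsS, hs1⟩ * s ^ (i : ℕ))⁻¹ := by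
    intro s hsS hs1 i y hy
    rw [hW ⟨s, hsS, hs1⟩ y hy]
    have hys : s ^ (i : ℕ) * y * (s ^ (i : ℕ))⁻¹ = y := by
      have h1 : y * s = s * y := Subgroup.mem_centralizer_singleton_iff.mp hy
      have h2 : y * s ^ (i : ℕ) = s ^ (i : ℕ) * y := by
        have : Commute y s := h1
        exact (this.pow_right _).eq
      rw [← h2]; group
    calc W ⟨s, hsS, hs1⟩ * y * (W ⟨s, hsS, hs1⟩)⁻¹
        = W ⟨s, hsS, hs1⟩ * (s ^ (i : ℕ) * y * (s ^ (i : ℕ))⁻¹) * (W ⟨s, hsS, hs1⟩)⁻¹ := by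
          rw [hys]
      _ = _ := by group
  -- `s ≠ s'`
  have hss' : s ≠ s' := by
    intro hEq
    subst hEq
    have hi : i ≠ i' := by
      intro hi
      apply hne
      rw [hi]
    have h1 : s ^ (i : ℕ) = s ^ (i' : ℕ) := mul_left_cancel hpp'
    have hi2 : (i : ℕ) < 2 := i.2
    have hi2' : (i' : ℕ) < 2 := i'.2
    have hv : (i : ℕ) ≠ (i' : ℕ) := fun h => hi (Fin.ext h)
    have : s = 1 := by
      rcases Nat.lt_or_gt_of_ne hv with hlt | hlt
      · have e0 : (i : ℕ) = 0 := by omega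
        have e1 : (i' : ℕ) = 1 := by omega
        rw [e0, e1, pow_zero, pow_one] at h1
        exact h1.symm
      · have e0 : (i' : ℕ) = 0 := by omega
        have e1 : (i : ℕ) = 1 := by omega
        rw [e0, e1, pow_zero, pow_one] at h1
        exact h1
    exact hs1 this
  obtain ⟨w, hwdef⟩ : ∃ w : G, w = W ⟨s, hsS, hs1⟩ * s ^ (i : ℕ) := ⟨_, rfl⟩
  have hw1 : ∀ y ∈ Subgroup.centralizer ({s} : Set G), φ y = w * y * w⁻¹ := by
    rw [hwdef]; exact hwork s hsS hs1 i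
  have hw2 : ∀ y ∈ Subgroup.centralizer ({s'} : Set G), φ y = w * y * w⁻¹ := by
    rw [hwdef, hpp']; exact hwork s' hs'S hs'1 i'
  -- the equalizer subgroup
  let K : Subgroup G := (φ.toMonoidHom).eqLocus (MulAut.conj w).toMonoidHom
  have hK : ∀ y, y ∈ K ↔ φ y = w * y * w⁻¹ := by
    intro y
    show φ.toMonoidHom y = (MulAut.conj w).toMonoidHom y ↔ _
    simp [MulAut.conj_apply]
  -- `C(s') ≰ C(s)`
  have hnot : ¬ (Subgroup.centralizer ({s'} : Set G) ≤ Subgroup.centralizer ({s} : Set G)) := by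
    intro hle
    have h1 : s ∈ Subgroup.centralizer ({s'} : Set G) := by
      rw [Subgroup.mem_centralizer_singleton_iff]
      exact hScomm s hsS s' hs'S
    have h2 : ∀ y ∈ Subgroup.centralizer ({s'} : Set G), s * y = y * s := by
      intro y hy
      exact (Subgroup.mem_centralizer_singleton_iff.mp (hle hy)).symm
    have h3 := (hloc s' hs'S hs'1).2 s h1 h2
    rcases mem_zpowers_of_sq (hSexp s' hs'S) h3 with h4 | h4
    · exact hs1 h4
    · exact hss' h4
  obtain ⟨y₀, hy₀, hy₀'⟩ := SetLike.not_le_iff_exists.mp hnot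
  -- transport to `C(t)`
  obtain ⟨h, hh⟩ := hconj s hsS hs1
  let K' : Subgroup G := K.comap (MulAut.conj h).toMonoidHom
  have hK' : ∀ x, x ∈ K' ↔ h * x * h⁻¹ ∈ K := by
    intro x
    show (MulAut.conj h).toMonoidHom x ∈ K ↔ _
    simp [MulAut.conj_apply]
  have hle : Subgroup.centralizer ({t} : Set G) ≤ K' := by
    intro x hx
    rw [hK', hK]
    apply hw1
    rw [← hh]
    exact (conj_mem_centralizer_iff h t x).mpr hx
  have hlt : Subgroup.centralizer ({t} : Set G) < K' := by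
    refine lt_of_le_of_ne hle ?_
    intro hEq
    apply hy₀'
    have h5 : h⁻¹ * y₀ * h ∈ K' := by
      rw [hK']
      have : h * (h⁻¹ * y₀ * h) * h⁻¹ = y₀ := by group
      rw [this, hK]
      exact hw2 y₀ hy₀
    rw [← hEq] at h5
    have h6 := (conj_mem_centralizer_iff h t _).mpr h5
    have : h * (h⁻¹ * y₀ * h) * h⁻¹ = y₀ := by group
    rw [this, hh] at h6
    exact h6
  have htop : K' = ⊤ := hco.2 K' hlt
  refine ⟨w, fun x => ?_⟩
  rw [← hK]
  have h7 : h⁻¹ * x * h ∈ K' := by rw [htop]; exact Subgroup.mem_top _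
  rw [hK'] at h7
  have : h * (h⁻¹ * x * h) * h⁻¹ = x := by group
  rw [this] at h7
  exact h7

end Cfsg.Agent.Lib.Helper93.JR
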